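import Cfsg.Agent.Lib.Chev.TwistG2ReeStruct
import Cfsg.Agent.Lib.Chev.FieldAut
import Cfsg.Agent.Lib.AutPSL.Facts

/-! Automorphisms of the Ree groups of type `G₂`: inner times field. -/

set_option autoImplicit false

namespace Cfsg.Agent.Lib.ReeAut

open Cfsg.Lie Cfsg.Agent.Lib Cfsg.Agent.Lib.Chev Cfsg.Agent.Lib.Chev.G2
open scoped Pointwise

variable {K : Type*} [Field K] [Fintype K] [CharP K 3] {m : ℕ}

/-- The Ree group. -/
abbrev GR (K : Type*) [Field K] (m : ℕ) := ↥(twistedG2 K (3 ^ m))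

/-- A unipotent element of the Ree group. -/
noncomputable def uR (m : ℕ) (t u v : K) : ↥(twistedG2 K (3 ^ m)) :=
  ⟨G2.checked.wg (reeWordU (3 ^ m) t u v), (word_mem t u v).1⟩

/-- The torus as the multiplicative group of the field. -/
structure Tor (K : Type*) [Field K] [Fintype K] [CharP K 3] (m : ℕ) where
  hom : Kˣ →* ↥(twistedG2 K (3 ^ m))
  inj : Function.Injective hom
  diag : ∀ z, (hom z : GL chevG2.Idx K) ∈ chevG2.diagonalSubgroup K
  surj : ∀ g : ↥(twistedG2 K (3 ^ m)),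
    (g : GL chevG2.Idx K) ∈ chevG2.diagonalSubgroup K → ∃ z, hom z = g
  conj : ∀ (z : Kˣ) (t u v : K), hom z * uR m t u v * (hom z)⁻¹ =
    uR m ((z : K) * t) ((z : K) ^ (3 * 3 ^ m + 1) * u) ((z : K) ^ (3 * 3 ^ m + 2) * v)

variable (θ : K ≃+* K)
  (hθ : ∀ t : K, θ t = t ^ 3 ^ m) (hK : Fintype.card K = 3 ^ (2 * m + 1))

include hθ hK

theorem exists_tor : Nonempty (Tor K m) := by
  obtain ⟨φ, hφ, hconj⟩ := exists_torusHom θ hθ hK
  have heq := eq_fixed θ hθ hK
  let e := MulEquiv.ofBijective φ hφ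
  let T : Kˣ →* (GR K m) :=
    { toFun := fun z => ⟨(e.symm z).1, by rw [heq]; exact (Subgroup.mem_inf.1 (e.symm z).2).2⟩
      map_one' := Subtype.ext (show ((e.symm 1).1 : GL chevG2.Idx K) = 1 by rw [map_one]; rfl)
      map_mul' := fun a b => Subtype.ext
        (show ((e.symm (a * b)).1 : GL chevG2.Idx K) = (e.symm a).1 * (e.symm b).1 by
          rw [map_mul]; rfl) }
  refine ⟨⟨T, fun a b h => ?_, fun z => (Subgroup.mem_inf.1 (e.symm z).2).1, fun g hg => ?_,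
    fun z t u v => ?_⟩⟩
  · exact e.symm.injective (Subtype.ext (congrArg (fun x : (GR K m) => (x : GL chevG2.Idx K)) h))
  · refine ⟨e ⟨g.1, Subgroup.mem_inf.2 ⟨hg, heq ▸ g.2⟩⟩, Subtype.ext ?_⟩
    show ((e.symm (e _)).1 : GL chevG2.Idx K) = g.1
    rw [MulEquiv.symm_apply_apply]
  · refine Subtype.ext ?_
    have := hconj (e.symm z) t u v
    rw [show φ (e.symm z) = z from e.apply_symm_apply z] at this
    exact this

omit hθ hK θ in
theorem uR_inj {t u v t' u' v' : K} (h : uR m t u v = uR m t' u' v') : t = t' ∧ u = u' ∧ v = v' :=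
  reeWord_inj (congrArg (fun x : (GR K m) => (x : GL chevG2.Idx K)) h)

omit hθ hK θ in
theorem uR_one : uR m (0 : K) 0 0 = 1 := Subtype.ext (reeWord_zero (by positivity))

omit hθ hK θ in
theorem uR_pos (t u v : K) : (uR m t u v : GL chevG2.Idx K) ∈ chevG2.posUnipotent K := by
  rw [posUnipotent_eq, pos_eq]
  exact G2.checked.wg_zip_mem (l := [7, 6, 8, 9, 10, 11]) [t ^ 3 ^ m, t,
    t ^ (3 ^ m + 1) + u ^ 3 ^ m, t ^ (2 * 3 ^ m + 1) + v ^ 3 ^ m, u, v]

theorem pos_cases {g : (GR K m)} (hg : (g : GL chevG2.Idx K) ∈ chevG2.posUnipotent K) :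
    ∃ t u v, g = uR m t u v := by
  obtain ⟨t, u, v, e⟩ := (mem_unip_iff θ hθ hK _).1
    (Subgroup.mem_inf.2 ⟨hg, eq_fixed θ hθ hK ▸ g.2⟩)
  exact ⟨t, u, v, Subtype.ext e⟩

theorem uR_mul (t u v t' u' v' : K) :
    uR m t u v * uR m t' u' v' = uR m (t + t') (-((t' ^ 3 ^ m) ^ 3 * t) + u + u')
      (-((t' ^ 3 ^ m) ^ 3 * t ^ 2) + v - t' * (-((t' ^ 3 ^ m) ^ 3 * t) + u) + v') := by
  have hmem : ((uR m t u v * uR m t' u' v' : (GR K m)) : GL chevG2.Idx K) ∈ chevG2.posUnipotent K :=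
    mul_mem (uR_pos t u v) (uR_pos t' u' v')
  obtain ⟨a, b, c, e⟩ := pos_cases θ hθ hK hmem
  rw [e]
  have e' := congrArg (fun x : (GR K m) => (x : GL chevG2.Idx K)) e
  simp only [uR, Subgroup.coe_mul, reeWord_eq_six, six_mul] at e'
  obtain ⟨-, h1, -, -, h2, h3⟩ := six_inj e'
  rw [← h1, ← h2, ← h3]

omit hθ hK θ in
theorem uR_zero_pow_three (t u v : K) : uR m t u v ^ 3 = 1 ↔ t = 0 := by
  have h0 : ((0 : K) ^ 3 ^ m) = 0 := zero_pow (by positivity)
  rw [← uR_one (K := K) (m := m), Subtype.ext_iff, SubgroupClass.coe_pow]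
  show G2.checked.wg (reeWordU (3 ^ m) t u v) ^ 3 = G2.checked.wg (reeWordU (3 ^ m) 0 0 0) ↔ _
  rw [reeWord_eq_six, reeWord_eq_six, six_cube]
  constructor
  · intro h
    have h9 := (six_inj h).2.2.2.1
    rw [h0, zero_pow (by omega : 2 * 3 ^ m + 1 ≠ 0), add_zero, neg_eq_zero, mul_eq_zero] at h9
    rcases h9 with h9 | h9
    · exact eq_zero_of_pow_eq_zero (eq_zero_of_pow_eq_zero h9)
    · exact h9
  · rintro rfl
    simp

theorem borel_cases (T : Tor K m) {g : (GR K m)}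
    (hg : (g : GL chevG2.Idx K) ∈ chevG2.borelSubgroup K) :
    ∃ t u v z, g = uR m t u v * T.hom z := by
  have heq := eq_fixed θ hθ hK
  obtain ⟨a, ha, haf, d, hd, hdf, e⟩ := (reeTwist θ).fixed_borel hg (heq ▸ g.2)
  obtain ⟨t, u, v, ha'⟩ := pos_cases θ hθ hK (g := ⟨a, heq.symm ▸ haf⟩) ha
  obtain ⟨z, hz⟩ := T.surj ⟨d, heq.symm ▸ hdf⟩ hd
  refine ⟨t, u, v, z, Subtype.ext ?_⟩
  rw [← ha', hz]
  exact e

omit hθ hK θ in
theorem uR_borel (t u v : K) : (uR m t u v : GL chevG2.Idx K) ∈ chevG2.borelSubgroup K :=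
  Subgroup.mem_sup_left (uR_pos t u v)

omit hθ hK θ in
theorem tor_borel (T : Tor K m) (z : Kˣ) :
    (T.hom z : GL chevG2.Idx K) ∈ chevG2.borelSubgroup K :=
  Subgroup.mem_sup_right (T.diag z)

omit hθ θ in
theorem exists_generator (hm : 1 ≤ m) :
    ∃ z : Kˣ, z ^ 2 ≠ 1 ∧ ((z : K) ^ 3 ^ m) ^ 3 ≠ z ∧ ∀ x : Kˣ, x ∈ Subgroup.zpowers z := by
  classical
  obtain ⟨z, hz⟩ := IsCyclic.exists_generator (α := Kˣ)
  have ho : orderOf z = 3 ^ (2 * m + 1) - 1 := by
    rw [orderOf_eq_card_of_forall_mem_zpowers hz, Nat.card_eq_fintype_card, Fintype.card_units, hK]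
  have hbig : (3 ^ m) * 3 < 3 ^ (2 * m + 1) := by
    rw [← pow_succ]; exact Nat.pow_lt_pow_right (by norm_num) (by omega)
  have h3 : 3 ≤ 3 ^ m := Nat.le_self_pow (by omega) 3
  refine ⟨z, fun h => ?_, fun h => ?_, hz⟩
  · have := Nat.le_of_dvd (by norm_num) (orderOf_dvd_of_pow_eq_one h)
    omega
  · have h1 : z ^ (3 ^ m * 3 - 1) = 1 := by
      refine mul_right_cancel (b := z) (Units.ext ?_)
      rw [← pow_succ, Nat.sub_add_cancel (by omega), one_mul, Units.val_pow_eq_pow_val, pow_mul, h]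
    have := Nat.le_of_dvd (by omega) (orderOf_dvd_of_pow_eq_one h1)
    omega

theorem diag_commute_pos (T : Tor K m) {t u v : K} (z : Kˣ) (hz : z ^ 2 ≠ 1)
    (h : T.hom z * uR m t u v = uR m t u v * T.hom z) : t = 0 ∧ u = 0 ∧ v = 0 := by
  have := T.conj z t u v
  rw [h, mul_inv_cancel_right] at this
  obtain ⟨e1, e2, e3⟩ := uR_inj this
  refine ⟨?_, ?_, ?_⟩
  · by_contra hne
    exact hz (by rw [show z = 1 from Units.ext ((mul_eq_right₀ hne).1 e1.symm), one_pow])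
  · by_contra hne
    exact hz (units_sq_eq_one hK z ((mul_eq_right₀ hne).1 e2.symm))
  · by_contra hne
    exact hz (by rw [units_eq_one hK z ((mul_eq_right₀ hne).1 e3.symm), one_pow])

omit hθ hK θ in
theorem eq_one_of_pos_diag {g : GR K m} (h1 : g.1 ∈ chevG2.posUnipotent K)
    (h2 : g.1 ∈ chevG2.diagonalSubgroup K) : g = 1 := by
  refine Subtype.ext ?_
  have := Subgroup.mem_inf.2 ⟨h1, h2⟩
  rw [G2.checked.pos_inf_diag, Subgroup.mem_bot] at this
  exact this

omit hθ hK θ in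
theorem conj_pos (T : Tor K m) (z : Kˣ) (t u v : K) :
    (T.hom z * uR m t u v * (T.hom z)⁻¹ : GR K m).1 ∈ chevG2.posUnipotent K := by
  rw [T.conj]
  exact uR_pos _ _ _

theorem eq_one_of_fix (hm : 1 ≤ m) (T : Tor K m) (β : MulAut (GR K m))
    (hu : ∀ t u v, β (uR m t u v) = uR m t u v) (ht : ∀ z, β (T.hom z) = T.hom z) : β = 1 := by
  have heq := eq_fixed θ hθ hK
  obtain ⟨z₀, hz₀, -, -⟩ := exists_generator (m := m) hK hm
  have r0 : 0 < chevG2.rank := by rw [rank_eq']; omega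
  have hwm : wZero K ∈ chevG2.monomialSubgroup K := (ree_cls θ).wN_mem_monomial r0
  let w : GR K m := ⟨wZero K, heq.symm ▸ wZero_mem θ⟩
  have hB : ∀ g : GR K m, g.1 ∈ chevG2.borelSubgroup K → β g = g := by
    intro g hg
    obtain ⟨t, u, v, z, rfl⟩ := borel_cases θ hθ hK T hg
    rw [map_mul, hu, ht]
  have hcell : ∀ g : GR K m, g.1 ∈ chevG2.borelSubgroup K ∨
      ∃ t u v, ∃ b : GR K m, b.1 ∈ chevG2.borelSubgroup K ∧ g = uR m t u v * w * b := by
    intro g
    have hgF : g.1 ∈ (reeTwist θ).fixed := heq ▸ g.2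
    rcases cells θ hθ hK hgF with h | ⟨a, ha, b, hb, e⟩
    · exact Or.inl h
    · obtain ⟨t, u, v, ha'⟩ := pos_cases θ hθ hK
        (g := ⟨a, heq.symm ▸ (Subgroup.mem_inf.1 ha).2⟩) (Subgroup.mem_inf.1 ha).1
      refine Or.inr ⟨t, u, v, ⟨b, heq.symm ▸ (Subgroup.mem_inf.1 hb).2⟩, (Subgroup.mem_inf.1 hb).1, ?_⟩
      rw [← ha']
      exact Subtype.ext e
  have hwB : w.1 ∉ chevG2.borelSubgroup K := wZero_not_borel θ hθ hK
  have hinter : ∀ g : GR K m, g.1 ∈ chevG2.borelSubgroup K →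
      (w⁻¹ * g * w).1 ∈ chevG2.borelSubgroup K → g.1 ∈ chevG2.diagonalSubgroup K :=
    fun g h1 h2 => borel_inter θ hθ hK (heq ▸ g.2) h1 h2
  have hfw : β w = w := by
    rcases hcell (β w) with h | ⟨t, u, v, b, hb, e⟩
    · exact absurd (β.injective (hB _ h) ▸ h) hwB
    have hd0 : (w⁻¹ * T.hom z₀ * w).1 ∈ chevG2.diagonalSubgroup K := by
      have h2 := G2.checked.mono_conj_diag (inv_mem hwm) _ (T.diag z₀)
      rwa [inv_inv] at h2
    set a := uR m t u v
    have h1 : w⁻¹ * (a⁻¹ * T.hom z₀ * a) * w = b * (w⁻¹ * T.hom z₀ * w) * b⁻¹ := by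
      have := hB _ (Subgroup.mem_sup_right hd0)
      rw [map_mul, map_mul, map_inv, ht, e] at this
      conv_rhs => rw [← this]
      group
    have ha1 : t = 0 ∧ u = 0 ∧ v = 0 := by
      refine diag_commute_pos θ hθ hK T z₀ hz₀ ?_
      have hd : (a⁻¹ * T.hom z₀ * a).1 ∈ chevG2.diagonalSubgroup K := by
        refine hinter _ (mul_mem (mul_mem (inv_mem (uR_borel t u v)) (tor_borel T z₀)) (uR_borel t u v)) ?_
        rw [h1]
        exact mul_mem (mul_mem hb (Subgroup.mem_sup_right hd0)) (inv_mem hb)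
      have h3 := eq_one_of_pos_diag (g := (T.hom z₀)⁻¹ * a⁻¹ * T.hom z₀ * a) ?_ ?_
      · calc T.hom z₀ * a = a * (T.hom z₀ * ((T.hom z₀)⁻¹ * a⁻¹ * T.hom z₀ * a)) := by group
          _ = a * T.hom z₀ := by rw [h3, mul_one]
      · have h4 := mul_mem (inv_mem (conj_pos T z₀⁻¹ t u v)) (uR_pos (m := m) t u v)
        rw [map_inv, inv_inv] at h4
        convert h4 using 1
        show _ = (((T.hom z₀)⁻¹ * a * T.hom z₀ : GR K m)⁻¹ * a).1
        congr 1
        group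
      · rw [mul_assoc, mul_assoc]
        exact mul_mem (inv_mem (T.diag z₀)) (by simpa [mul_assoc] using hd)
    obtain ⟨rfl, rfl, rfl⟩ := ha1
    rw [show a = 1 from uR_one] at e h1
    rw [one_mul] at e
    simp only [inv_one, one_mul, mul_one] at h1
    obtain ⟨t', u', v', z₁, rfl⟩ := borel_cases θ hθ hK T hb
    obtain ⟨z₂, hz₂⟩ := T.surj (w⁻¹ * T.hom z₀ * w) hd0
    have hz2 : z₂ ^ 2 ≠ 1 := by
      intro h
      refine hz₀ (T.inj ?_)
      have h' := congrArg (fun x => w * x * w⁻¹) (congrArg T.hom h)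
      simp only [map_pow, map_one, mul_one, mul_inv_cancel, hz₂] at h'
      rw [map_pow, map_one, ← h']
      simp [pow_two, mul_assoc]
    rw [← hz₂] at h1
    have hcomm : T.hom z₂ * uR m t' u' v' = uR m t' u' v' * T.hom z₂ := by
      have h5 : (uR m t' u' v' * T.hom z₁) * T.hom z₂ * (uR m t' u' v' * T.hom z₁)⁻¹ =
          uR m t' u' v' * T.hom z₂ * (uR m t' u' v')⁻¹ := by
        rw [mul_assoc (uR m t' u' v'), ← map_mul, mul_comm z₁, map_mul]
        group
      rw [h5] at h1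
      conv_lhs => rw [h1]
      rw [inv_mul_cancel_right]
    obtain ⟨rfl, rfl, rfl⟩ := diag_commute_pos θ hθ hK T z₂ hz2 hcomm
    rw [uR_one, one_mul] at e
    set x := uR m (1 : K) 0 0 with hx
    have hxy : T.hom z₁ * x * (T.hom z₁)⁻¹ = x := by
      rcases hcell (w * x * w) with h | ⟨p, q, r, b1, hb1, e1⟩
      · exfalso
        have hw2 : wZero K * wZero K ∈ chevG2.borelSubgroup K :=
          Subgroup.mem_sup_right ((ree_cls θ).wN_sq_mem r0)
        have := eq_one_of_conj θ (uR_pos (m := m) (1 : K) 0 0) (by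
          have h' : (w * x * w).1 * (wZero K * wZero K)⁻¹ ∈ chevG2.borelSubgroup K :=
            mul_mem h (inv_mem hw2)
          simpa [x, w, mul_assoc] using h')
        exact one_ne_zero (uR_inj ((Subtype.ext this : x = 1).trans uR_one.symm)).1
      have e2 := congrArg β e1
      simp only [map_mul, e, hu, hB b1 hb1, hx] at e2
      rw [← hx] at e2
      set h := T.hom z₁
      have hd : (w⁻¹ * h * w).1 ∈ chevG2.diagonalSubgroup K := by
        have h2 := G2.checked.mono_conj_diag (inv_mem hwm) _ (T.diag z₁)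
        rwa [inv_inv] at h2
      obtain ⟨y1, y2, y3, hy⟩ : ∃ y1 y2 y3, h * x * h⁻¹ = uR m y1 y2 y3 := ⟨_, _, _, T.conj z₁ _ _ _⟩
      have h6 : (x⁻¹ * (h * x * h⁻¹)).1 ∈ chevG2.diagonalSubgroup K := by
        refine hinter _ (mul_mem (inv_mem (uR_borel _ _ _)) (by rw [hy]; exact uR_borel _ _ _)) ?_
        have h7 : w⁻¹ * (x⁻¹ * (h * x * h⁻¹)) * w =
            b1⁻¹ * h * b1 * (w⁻¹ * h * w * h)⁻¹ := by
          have e3 : (w * x * w)⁻¹ * (uR m p q r * w) = b1⁻¹ := by rw [e1]; group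
          have e4 : w * h * x * (w * h) = uR m p q r * (w * h) * b1 := e2
          calc w⁻¹ * (x⁻¹ * (h * x * h⁻¹)) * w
              = (w * x * w)⁻¹ * (w * h * x * (w * h)) * (w⁻¹ * h * w * h)⁻¹ := by group
            _ = (w * x * w)⁻¹ * (uR m p q r * (w * h) * b1) * (w⁻¹ * h * w * h)⁻¹ := by rw [e4]
            _ = ((w * x * w)⁻¹ * (uR m p q r * w)) * h * b1 * (w⁻¹ * h * w * h)⁻¹ := by group
            _ = _ := by rw [e3]
        rw [h7]
        exact mul_mem (mul_mem (mul_mem (inv_mem hb1) (tor_borel T z₁)) hb1)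
          (inv_mem (mul_mem (Subgroup.mem_sup_right hd) (tor_borel T z₁)))
      exact (inv_mul_eq_one.1 (eq_one_of_pos_diag
        (mul_mem (inv_mem (uR_pos _ _ _)) (by rw [hy]; exact uR_pos _ _ _)) h6)).symm
    rw [hx, T.conj, mul_one] at hxy
    rw [e, show z₁ = 1 from Units.ext (uR_inj hxy).1, map_one, mul_one]
  refine MulEquiv.ext fun g => ?_
  rcases hcell g with h | ⟨t, u, v, b, hb, rfl⟩
  · exact hB g h
  · rw [map_mul, map_mul, hu, hfw, hB b hb]; rfl

omit θ hθ hK in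
/-- The positive unipotent subgroup of the Ree group. -/
def uSub (K : Type*) [Field K] (m : ℕ) : Subgroup (GR K m) :=
  (chevG2.posUnipotent K).subgroupOf (twistedG2 K (3 ^ m))

omit θ hθ hK in
theorem uR_mem_uSub (t u v : K) : uR m t u v ∈ uSub K m := Subgroup.mem_subgroupOf.2 (uR_pos t u v)

theorem mem_uSub {g : GR K m} : g ∈ uSub K m ↔ ∃ t u v, g = uR m t u v :=
  ⟨fun h => pos_cases θ hθ hK (Subgroup.mem_subgroupOf.1 h), by
    rintro ⟨t, u, v, rfl⟩; exact uR_mem_uSub t u v⟩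

theorem card_uSub : Nat.card ↥(uSub K m) = 3 ^ ((2 * m + 1) * 3) := by
  have e : uSub K m = (chevG2.posUnipotent K ⊓ twistedG2 K (3 ^ m)).subgroupOf _ :=
    (Subgroup.inf_subgroupOf_right _ _).symm
  rw [e, Nat.card_congr (Subgroup.subgroupOfEquivOfLe inf_le_right).toEquiv, eq_fixed θ hθ hK,
    card_pos_fixed θ hθ hK, hK, ← pow_mul]

theorem index_uSub : ¬ 3 ∣ (uSub K m).index := by
  have hcard := card_ree θ hθ hK
  have h := (uSub K m).card_mul_index
  rw [card_uSub θ hθ hK, hcard, ← pow_mul, mul_assoc, Nat.mul_left_cancel_iff (by positivity)] at h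
  rw [h, Nat.prime_three.dvd_mul, pow_mul]
  have h3 : 3 ∣ 3 ^ (2 * m + 1) := dvd_pow_self 3 (by omega)
  have h1 : 1 ≤ 3 ^ (2 * m + 1) := Nat.one_le_pow _ _ (by norm_num)
  have h4 : 3 ∣ (3 ^ (2 * m + 1)) ^ 3 := h3.trans (dvd_pow_self _ (by norm_num))
  rintro (h5 | h5) <;> omega

theorem normalizer_le_borel {g : GR K m} (hg : ∀ x ∈ uSub K m, g * x * g⁻¹ ∈ uSub K m) :
    g.1 ∈ chevG2.borelSubgroup K := by
  have heq := eq_fixed θ hθ hK
  have hgF : g.1 ∈ (reeTwist θ).fixed := heq ▸ g.2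
  rcases cells θ hθ hK hgF with h | ⟨a, ha, b, hb, e⟩
  · exact h
  exfalso
  obtain ⟨hb1, hb2⟩ := Subgroup.mem_inf.1 hb
  let b' : GR K m := ⟨b, heq.symm ▸ hb2⟩
  obtain ⟨T⟩ := exists_tor θ hθ hK
  obtain ⟨t, u, v, z, hbe⟩ := borel_cases θ hθ hK T (g := b') hb1
  have hx : b'⁻¹ * uR m (1 : K) 0 0 * b' ∈ uSub K m := by
    rw [hbe]
    have h1 : (T.hom z)⁻¹ * ((uR m t u v)⁻¹ * uR m 1 0 0 * uR m t u v) * T.hom z ∈ uSub K m := by
      obtain ⟨p, q, r, hpq⟩ := (mem_uSub θ hθ hK).1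
        (mul_mem (mul_mem (inv_mem (uR_mem_uSub t u v)) (uR_mem_uSub (m := m) (1 : K) 0 0)) (uR_mem_uSub t u v))
      rw [hpq]
      have := T.conj z⁻¹ p q r
      rw [map_inv, inv_inv] at this
      rw [this]
      exact uR_mem_uSub _ _ _
    simpa [mul_assoc] using h1
  have h2 := Subgroup.mem_subgroupOf.1 (hg _ hx)
  have h3 : wZero K * (uR m (1 : K) 0 0).1 * (wZero K)⁻¹ ∈ chevG2.posUnipotent K := by
    have h4 := mul_mem (mul_mem (inv_mem (Subgroup.mem_inf.1 ha).1) h2) (Subgroup.mem_inf.1 ha).1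
    simpa [e, b', mul_assoc] using h4
  exact one_ne_zero (uR_inj ((Subtype.ext
    (eq_one_of_conj θ (uR_pos (m := m) (1 : K) 0 0) (Subgroup.mem_sup_left h3)) :
      uR m (1 : K) 0 0 = 1).trans uR_one.symm)).1

theorem uR_zero_mul (u v u' v' : K) :
    uR m 0 u v * uR m 0 u' v' = uR m 0 (u + u') (v + v') := by
  rw [uR_mul θ hθ hK]; simp

theorem uR_split (t u v : K) : uR m t u v = uR m t 0 0 * uR m 0 u v := by
  rw [uR_mul θ hθ hK]; simp

/-- The field automorphism. -/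
theorem gmap_mem (σ : K ≃+* K) {g : GL chevG2.Idx K} (hg : g ∈ twistedG2 K (3 ^ m)) :
    gmap chevG2 σ.toRingHom g ∈ twistedG2 K (3 ^ m) := by
  have h : twistedG2 K (3 ^ m) ≤ (twistedG2 K (3 ^ m)).comap (gmap chevG2 σ.toRingHom) := by
    refine (Subgroup.closure_le _).2 fun x hx => ?_
    obtain ⟨w, ⟨t, u, v, rfl | rfl⟩, e⟩ := hx <;> obtain rfl := eq_wg e <;>
      show gmap chevG2 σ.toRingHom _ ∈ twistedG2 K (3 ^ m)
    · rw [G2.checked.gmap_wg]
      · convert (word_mem (e := 3 ^ m) (σ t) (σ u) (σ v)).1 using 2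
        simp [reeWordU]
      · intro p hp
        simp only [reeWordU, List.mem_cons, List.not_mem_nil, or_false] at hp
        rcases hp with rfl | rfl | rfl | rfl | rfl | rfl <;> exact lt12 (by norm_num [g2a, g2b, g2ab, g2aab, g2aaab, g2aaabb])
    · rw [G2.checked.gmap_wg]
      · convert (word_mem (e := 3 ^ m) (σ t) (σ u) (σ v)).2 using 2
        simp [negV]
      · intro p hp
        rw [negV] at hp
        simp only [List.zip_cons_cons, List.zip_nil_right, List.mem_cons, List.not_mem_nil,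
          or_false] at hp
        rcases hp with rfl | rfl | rfl | rfl | rfl | rfl <;> exact lt12 (by norm_num [g2a, g2b, g2ab, g2aab, g2aaab, g2aaabb])
  exact h hg

omit θ hθ hK in
/-- The field automorphisms of the Ree group. -/
noncomputable def fieldAut (K : Type*) [Field K] [Fintype K] [CharP K 3] (m : ℕ)
    (h : ∀ (σ : K ≃+* K) (g : GL chevG2.Idx K), g ∈ twistedG2 K (3 ^ m) →
      gmap chevG2 σ.toRingHom g ∈ twistedG2 K (3 ^ m)) : (K ≃+* K) →* MulAut (GR K m) where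
  toFun σ :=
    { toFun := fun g => ⟨gmap chevG2 σ.toRingHom g, h σ _ g.2⟩
      invFun := fun g => ⟨gmap chevG2 σ.symm.toRingHom g, h σ.symm _ g.2⟩
      left_inv := fun g => Subtype.ext (by simp [gmap_gmap, gmap_id])
      right_inv := fun g => Subtype.ext (by simp [gmap_gmap, gmap_id])
      map_mul' := fun g g' => Subtype.ext (map_mul _ _ _) }
  map_one' := MulEquiv.ext fun g => Subtype.ext (gmap_id g.1)
  map_mul' σ τ := MulEquiv.ext fun g => Subtype.ext (gmap_gmap (σ.toRingHom) (τ.toRingHom) g.1).symm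

omit θ hθ hK in
theorem fieldAut_uR (h) (σ : K ≃+* K) (t u v : K) :
    fieldAut K m h σ (uR m t u v) = uR m (σ t) (σ u) (σ v) := by
  refine Subtype.ext ?_
  show gmap chevG2 σ.toRingHom (G2.checked.wg (reeWordU (3 ^ m) t u v)) = _
  rw [G2.checked.gmap_wg]
  · show _ = G2.checked.wg _
    congr 1
    simp [reeWordU]
  · intro p hp
    simp only [reeWordU, List.mem_cons, List.not_mem_nil, or_false] at hp
    rcases hp with rfl | rfl | rfl | rfl | rfl | rfl <;> exact lt12 (by norm_num [g2a, g2b, g2ab, g2aab, g2aaab, g2aaabb])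

omit θ hθ hK in
theorem fieldAut_tor (h) (σ : K ≃+* K) (T : Tor K m) (z : Kˣ) :
    ∃ z', fieldAut K m h σ (T.hom z) = T.hom z' := by
  obtain ⟨z', hz'⟩ := T.surj (fieldAut K m h σ (T.hom z)) (G2.checked.gmap_diag _ (T.diag z))
  exact ⟨z', hz'.symm⟩

theorem exists_normal (hm : 1 ≤ m) (T : Tor K m) (β : MulAut (GR K m)) :
    ∃ k, (∀ t u v, MulAut.conj k (β (uR m t u v)) ∈ uSub K m) ∧
      ∀ z, ∃ z', MulAut.conj k (β (T.hom z)) = T.hom z' := by
  classical
  haveI : Fact (Nat.Prime 3) := ⟨Nat.prime_three⟩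
  obtain ⟨z₀, hz₀, -, hgen⟩ := exists_generator (m := m) hK hm
  have hc := card_uSub θ hθ hK
  have hidx := index_uSub θ hθ hK
  set V := (uSub K m).map β.toMonoidHom with hV
  have hVi : ¬ 3 ∣ V.index := by
    rw [hV, Subgroup.index_map_of_bijective (show Function.Bijective β.toMonoidHom from β.bijective)]
    exact hidx
  have hVc : Nat.card ↥V = 3 ^ ((2 * m + 1) * 3) := by
    rw [hV, Subgroup.card_map_of_injective (f := β.toMonoidHom) β.injective, hc]
  let P₀ : Sylow 3 (GR K m) := (IsPGroup.of_card hc).toSylow hidx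
  let PV : Sylow 3 (GR K m) := (IsPGroup.of_card hVc).toSylow hVi
  obtain ⟨k, hk⟩ := MulAction.exists_smul_eq (GR K m) PV P₀
  have hmem : ∀ y, y ∈ uSub K m ↔ k * β y * k⁻¹ ∈ uSub K m := by
    intro y
    have h1 : (P₀ : Subgroup (GR K m)) = MulAut.conj k • (PV : Subgroup (GR K m)) := by rw [← hk]; rfl
    have h2 : k * β y * k⁻¹ ∈ uSub K m ↔ β y ∈ V := by
      show _ ∈ (P₀ : Subgroup (GR K m)) ↔ _
      rw [h1, Subgroup.mem_pointwise_smul_iff_inv_smul_mem]
      show (MulAut.conj k)⁻¹ • (k * β y * k⁻¹) ∈ V ↔ _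
      simp [MulAut.smul_def, mul_assoc]
    rw [h2, hV]
    exact (Subgroup.mem_map_iff_mem (f := β.toMonoidHom) β.injective).symm
  set β1 := MulAut.conj k * β with hβ1
  have hmem1 : ∀ y, y ∈ uSub K m ↔ β1 y ∈ uSub K m := hmem
  have hgB : (β1 (T.hom z₀)).1 ∈ chevG2.borelSubgroup K := by
    refine normalizer_le_borel θ hθ hK fun x hx => ?_
    obtain ⟨y, rfl⟩ := β1.surjective x
    rw [← hmem1] at hx
    obtain ⟨t, u, v, rfl⟩ := (mem_uSub θ hθ hK).1 hx
    rw [← map_inv, ← map_mul, ← map_mul, ← hmem1, T.conj]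
    exact uR_mem_uSub _ _ _
  obtain ⟨t, u, v, z₁, hz₁⟩ := borel_cases θ hθ hK T hgB
  set a := uR m t u v
  have hz1 : z₁ ^ 2 ≠ 1 := by
    intro h
    have h2 : β1 (T.hom (z₀ ^ 2)) ∈ uSub K m := by
      have e : T.hom z₁ * T.hom z₁ = 1 := by rw [← map_mul, ← pow_two, h, map_one]
      have e2 : a * T.hom z₁ * (a * T.hom z₁) = a * (T.hom z₁ * a * (T.hom z₁)⁻¹) := by
        calc a * T.hom z₁ * (a * T.hom z₁)
            = a * (T.hom z₁ * a * (T.hom z₁)⁻¹) * (T.hom z₁ * T.hom z₁) := by group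
          _ = _ := by rw [e, mul_one]
      rw [map_pow, map_pow, pow_two, hz₁, e2, T.conj]
      exact mul_mem (uR_mem_uSub _ _ _) (uR_mem_uSub _ _ _)
    rw [← hmem1] at h2
    exact hz₀ (T.inj (by rw [eq_one_of_pos_diag (Subgroup.mem_subgroupOf.1 h2) (T.diag _), map_one]))
  set h := T.hom z₁
  let φ : ↥(uSub K m) → ↥(uSub K m) := fun x => ⟨x.1 * (h * x.1⁻¹ * h⁻¹), by
    obtain ⟨p, q, r, e⟩ := (mem_uSub θ hθ hK).1 (inv_mem x.2)
    rw [e, T.conj]
    exact mul_mem x.2 (uR_mem_uSub _ _ _)⟩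
  have hφ : Function.Injective φ := by
    intro x y e
    have e' : x.1 * (h * x.1⁻¹ * h⁻¹) = y.1 * (h * y.1⁻¹ * h⁻¹) := congrArg Subtype.val e
    obtain ⟨p, q, r, e2⟩ := (mem_uSub θ hθ hK).1 (mul_mem (inv_mem y.2) x.2)
    have hc : h * uR m p q r = uR m p q r * h := by
      rw [← e2]
      calc h * (y.1⁻¹ * x.1) = y.1⁻¹ * (y.1 * (h * y.1⁻¹ * h⁻¹)) * h * x.1 := by group
        _ = y.1⁻¹ * (x.1 * (h * x.1⁻¹ * h⁻¹)) * h * x.1 := by rw [e']
        _ = _ := by group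
    obtain ⟨rfl, rfl, rfl⟩ := diag_commute_pos θ hθ hK T z₁ hz1 hc
    rw [uR_one, inv_mul_eq_one] at e2
    exact (Subtype.ext e2).symm
  obtain ⟨x, hx⟩ := (Finite.injective_iff_surjective.1 hφ) ⟨a, uR_mem_uSub t u v⟩
  have hx' : x.1 * (h * x.1⁻¹ * h⁻¹) = a := congrArg Subtype.val hx
  set β2 := MulAut.conj (x.1⁻¹ * k) * β
  have happ : ∀ y, MulAut.conj (x.1⁻¹ * k) (β y) = x.1⁻¹ * β1 y * x.1 := fun y => by
    simp [hβ1, MulAut.conj_apply, mul_assoc]
  refine ⟨x.1⁻¹ * k, fun p q r => ?_, fun z => ?_⟩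
  · rw [happ]
    exact mul_mem (mul_mem (inv_mem x.2) ((hmem1 _).1 (uR_mem_uSub p q r))) x.2
  · have h0 : β2 (T.hom z₀) = h := by
      show MulAut.conj (x.1⁻¹ * k) (β (T.hom z₀)) = h
      rw [happ, hz₁, ← hx']
      group
    obtain ⟨n, rfl⟩ := Subgroup.mem_zpowers_iff.1 (hgen z)
    refine ⟨z₁ ^ n, ?_⟩
    show β2 (T.hom (z₀ ^ n)) = _
    rw [map_zpow, map_zpow, h0, map_zpow]

theorem exists_inner_field (hm : 1 ≤ m) (hf) (β : MulAut (GR K m)) :
    ∃ k σ, β = MulAut.conj k * fieldAut K m hf σ := by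
  classical
  obtain ⟨T⟩ := exists_tor θ hθ hK
  obtain ⟨k, hU, hT⟩ := exists_normal θ hθ hK hm T β
  set β1 := MulAut.conj k * β with hβ1
  have hU1 : ∀ t u v, ∃ p q r, β1 (uR m t u v) = uR m p q r := fun t u v =>
    (mem_uSub θ hθ hK).1 (hU t u v)
  have hzero : ∀ u v, ∃ p q, β1 (uR m 0 u v) = uR m 0 p q := by
    intro u v
    obtain ⟨p, q, r, e⟩ := hU1 0 u v
    have : uR m p q r ^ 3 = 1 := by rw [← e, ← map_pow, (uR_zero_pow_three 0 u v).2 rfl, map_one]
    obtain rfl := (uR_zero_pow_three p q r).1 this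
    exact ⟨q, r, e⟩
  have hf0 : ∀ t, ∃ p, ∀ u v, ∃ q r, β1 (uR m t u v) = uR m p q r := by
    intro t
    obtain ⟨p, q, r, e⟩ := hU1 t 0 0
    refine ⟨p, fun u v => ?_⟩
    obtain ⟨q', r', e'⟩ := hzero u v
    rw [uR_split θ hθ hK, map_mul, e, e', uR_mul θ hθ hK, add_zero]
    exact ⟨_, _, rfl⟩
  choose f hfst using hf0
  have hf1 : ∀ {t u v p q r}, β1 (uR m t u v) = uR m p q r → p = f t := by
    intro t u v p q r e
    obtain ⟨q', r', e'⟩ := hfst t u v
    exact (uR_inj (e.symm.trans e')).1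
  have hadd : ∀ x y, f (x + y) = f x + f y := by
    intro x y
    obtain ⟨q, r, e⟩ := hfst x 0 0
    obtain ⟨q', r', e'⟩ := hfst y 0 0
    have := congrArg β1 (uR_mul θ hθ hK x 0 0 y 0 0)
    rw [map_mul, e, e', uR_mul θ hθ hK] at this
    exact (hf1 this.symm).symm
  choose ψ hψ using hT
  have hψ' : ∀ z, β1 (T.hom z) = T.hom (ψ z) := hψ
  have hequiv : ∀ (z : Kˣ) y, f ((z : K) * y) = (ψ z : K) * f y := by
    intro z y
    obtain ⟨q, r, e⟩ := hfst y 0 0
    have := congrArg β1 (T.conj z y 0 0)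
    rw [map_mul, map_mul, map_inv, hψ', e, T.conj] at this
    exact (hf1 this.symm).symm
  have hf00 : f 0 = 0 := by simpa using hadd 0 0
  have hf0iff : ∀ x, f x = 0 → x = 0 := by
    intro x hx
    obtain ⟨q, r, e⟩ := hfst x 0 0
    rw [hx] at e
    exact (uR_zero_pow_three x 0 0).1 (β1.injective (by
      rw [map_pow, e, (uR_zero_pow_three 0 q r).2 rfl, map_one]))
  have hinj : Function.Injective f := fun x y e => sub_eq_zero.1 (hf0iff _ (by
    have := hadd (x - y) y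
    rw [sub_add_cancel] at this
    linear_combination e - this))
  have hc : f 1 ≠ 0 := fun e => one_ne_zero (hf0iff 1 e)
  set c : Kˣ := Units.mk0 (f 1) hc
  let η : K → K := fun x => (f 1)⁻¹ * f x
  have hηmul : ∀ x y, η (x * y) = η x * η y := by
    intro x y
    rcases eq_or_ne x 0 with rfl | hx
    · simp [η, hf00]
    have e1 := hequiv (Units.mk0 x hx) y
    have e2 := hequiv (Units.mk0 x hx) 1
    rw [Units.val_mk0] at e1 e2
    rw [mul_one] at e2
    simp only [η]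
    rw [e1, e2]
    field_simp
  let σ : K ≃+* K := RingEquiv.ofBijective
    ({ toFun := η
       map_one' := by simp [η, hc]
       map_mul' := hηmul
       map_zero' := by simp [η, hf00]
       map_add' := fun x y => by simp only [η]; rw [hadd, mul_add] } : K →+* K)
    (Finite.injective_iff_bijective.1 fun x y e => hinj (mul_left_cancel₀ (inv_ne_zero hc) e))
  have hση : ∀ x, σ x = (f 1)⁻¹ * f x := fun x => rfl
  set β2 := (fieldAut K m hf σ)⁻¹ * (MulAut.conj (T.hom c⁻¹) * β1) with hβ2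
  have hu2 : ∀ t u v, ∃ q r, β2 (uR m t u v) = uR m t q r := by
    intro t u v
    obtain ⟨q, r, e⟩ := hfst t u v
    rw [hβ2, MulAut.mul_apply, MulAut.mul_apply, MulAut.conj_apply, e, T.conj, ← map_inv, fieldAut_uR]
    rw [Units.val_inv_eq_inv_val, Units.val_mk0, ← hση, show σ⁻¹ (σ t) = t from σ.symm_apply_apply t]
    exact ⟨_, _, rfl⟩
  have ht2 : ∀ z, β2 (T.hom z) = T.hom z := by
    intro z
    obtain ⟨z', hz'⟩ := fieldAut_tor hf σ⁻¹ T (ψ z)
    have e : β2 (T.hom z) = T.hom z' := by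
      have hcomm : T.hom c⁻¹ * T.hom (ψ z) * (T.hom c⁻¹)⁻¹ = T.hom (ψ z) := by
        rw [← map_mul, mul_comm c⁻¹, map_mul, mul_inv_cancel_right]
      rw [hβ2, MulAut.mul_apply, MulAut.mul_apply, MulAut.conj_apply, hψ', hcomm, ← map_inv, hz']
    obtain ⟨q, r, e1⟩ := hu2 1 0 0
    obtain ⟨q', r', e2⟩ := hu2 (z : K) 0 0
    have := congrArg β2 (T.conj z 1 0 0)
    rw [map_mul, map_mul, map_inv, e, e1, T.conj,
      show uR m ((z : K) * 1) ((z : K) ^ (3 * 3 ^ m + 1) * 0) ((z : K) ^ (3 * 3 ^ m + 2) * 0) =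
        uR m (z : K) 0 0 by simp, e2] at this
    rw [e, show z' = z from Units.ext (by linear_combination (uR_inj this).1)]
  choose Q R hQR using hu2
  have hzadd : ∀ u v u' v', Q 0 (u + u') (v + v') = Q 0 u v + Q 0 u' v' ∧
      R 0 (u + u') (v + v') = R 0 u v + R 0 u' v' := by
    intro u v u' v'
    have := congrArg β2 (uR_zero_mul θ hθ hK u v u' v')
    rw [map_mul, hQR, hQR, hQR, uR_zero_mul θ hθ hK] at this
    exact ⟨(uR_inj this).2.1.symm, (uR_inj this).2.2.symm⟩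
  have hconj : ∀ (z : Kˣ) t u v,
      Q ((z : K) * t) ((z : K) ^ (3 * 3 ^ m + 1) * u) ((z : K) ^ (3 * 3 ^ m + 2) * v) =
        (z : K) ^ (3 * 3 ^ m + 1) * Q t u v ∧
      R ((z : K) * t) ((z : K) ^ (3 * 3 ^ m + 1) * u) ((z : K) ^ (3 * 3 ^ m + 2) * v) =
        (z : K) ^ (3 * 3 ^ m + 2) * R t u v := by
    intro z t u v
    have := congrArg β2 (T.conj z t u v)
    rw [map_mul, map_mul, map_inv, ht2, hQR, T.conj, hQR] at this
    exact ⟨(uR_inj this).2.1.symm, (uR_inj this).2.2.symm⟩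
  have hodd : Odd (3 ^ m) := (by decide : Odd 3).pow
  have hev : Even (3 * 3 ^ m + 1) := ((by decide : Odd 3).mul hodd).add_one
  have hod : Odd (3 * 3 ^ m + 2) := hev.add_one
  have hpm : ∀ u v, Q 0 u (-v) = Q 0 u v ∧ R 0 u (-v) = -R 0 u v := by
    intro u v
    have := hconj (-1) 0 u v
    simpa [hev.neg_one_pow, hod.neg_one_pow] using this
  have h3 : (3 : K) = 0 := CharP.ofNat_eq_zero K 3
  have hQ0 : Q 0 0 0 = 0 ∧ R 0 0 0 = 0 := by
    have := hzadd 0 0 0 0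
    simp only [add_zero] at this
    exact ⟨by linear_combination -this.1, by linear_combination -this.2⟩
  have hQv : ∀ v, Q 0 0 v = 0 := by
    intro v
    have := (hzadd 0 v 0 (-v)).1
    rw [add_zero, add_neg_cancel, hQ0.1, (hpm 0 v).1] at this
    linear_combination this + Q 0 0 v * h3
  have hRu : ∀ u, R 0 u 0 = 0 := by
    intro u
    have := (hpm u 0).2
    rw [neg_zero] at this
    linear_combination -this + R 0 u 0 * h3
  have hD : ∀ u v, Q 0 u v = Q 0 u 0 ∧ R 0 u v = R 0 0 v := by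
    intro u v
    have := hzadd u 0 0 v
    simp only [add_zero, zero_add, hQv, hRu] at this
    exact this
  have hfull : ∀ t u v, Q t u v = Q t 0 0 + Q 0 u 0 ∧ R t u v = R t 0 0 + R 0 0 v := by
    intro t u v
    have := congrArg β2 (uR_split θ hθ hK t u v)
    rw [map_mul, hQR, hQR, hQR, uR_mul θ hθ hK, (hD u v).1, (hD u v).2] at this
    obtain ⟨-, e1, e2⟩ := uR_inj this
    simp at e1 e2
    exact ⟨e1, e2⟩
  set D := fun u => Q 0 u 0 with hDdef
  set B := fun v => R 0 0 v with hBdef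
  set E := fun t => Q t 0 0 with hEdef
  set G := fun t => R t 0 0 with hGdef
  have hBD : ∀ t u, B (t * u) = t * D u := by
    intro t u
    have := congrArg β2 (uR_mul θ hθ hK 0 u 0 t 0 0)
    simp only [mul_zero, neg_zero, zero_add, add_zero, zero_pow (two_ne_zero), sub_zero] at this
    rw [map_mul, hQR, hQR, hQR, uR_mul θ hθ hK, hRu, (hfull t u _).1, (hfull t u _).2] at this
    obtain ⟨-, -, e⟩ := uR_inj this
    have hneg : R 0 0 (-(t * u)) = -R 0 0 (t * u) := (hpm 0 (t * u)).2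
    simp [hneg] at e
    simp only [hBdef, hDdef]
    linear_combination e
  set d := D 1
  have hBx : ∀ x, B x = x * d := fun x => by simpa using hBD x 1
  have hDx : ∀ x, D x = x * d := fun x => by
    have := hBD 1 x
    rw [one_mul, one_mul, hBx] at this
    exact this.symm
  have hE : ∀ x, x ≠ 0 → E x = x ^ (3 * 3 ^ m + 1) * E 1 ∧ G x = x ^ (3 * 3 ^ m + 2) * G 1 := by
    intro x hx
    have := hconj (Units.mk0 x hx) 1 0 0
    simpa using this
  have hQ00 : E 0 = 0 ∧ G 0 = 0 := hQ0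
  have hprod : ∀ y, E (1 + y) + (-((y ^ 3 ^ m) ^ 3)) * d = -((y ^ 3 ^ m) ^ 3) + E 1 + E y ∧
      G (1 + y) + (-((y ^ 3 ^ m) ^ 3) + y * (y ^ 3 ^ m) ^ 3) * d =
        -((y ^ 3 ^ m) ^ 3) + G 1 - y * (-((y ^ 3 ^ m) ^ 3) + E 1) + G y := by
    intro y
    have := congrArg β2 (uR_mul θ hθ hK 1 0 0 y 0 0)
    simp only [mul_one, one_pow, add_zero, mul_neg, sub_neg_eq_add] at this
    rw [map_mul, hQR, hQR, hQR, uR_mul θ hθ hK, (hfull (1 + y) _ _).1, (hfull (1 + y) _ _).2] at this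
    obtain ⟨-, e1, e2⟩ := uR_inj this
    rw [show ∀ x, Q 0 x 0 = D x from fun _ => rfl, hDx] at e1
    rw [show ∀ x, R 0 0 x = B x from fun _ => rfl, hBx] at e2
    simp only [mul_one, one_pow] at e1 e2
    simp only [hEdef, hGdef]
    exact ⟨by linear_combination -e1, by linear_combination -e2⟩
  obtain ⟨z₀, -, hy0, -⟩ := exists_generator (m := m) hK hm
  set y : K := (z₀ : K) with hydef
  set Y : K := (y ^ 3 ^ m) ^ 3 with hYdef
  have hp1 : ∀ x : K, x ^ (3 * 3 ^ m + 1) = (x ^ 3 ^ m) ^ 3 * x := fun x => by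
    rw [pow_succ, mul_comm 3, pow_mul]
  have hp2 : ∀ x : K, x ^ (3 * 3 ^ m + 2) = (x ^ 3 ^ m) ^ 3 * x ^ 2 := fun x => by
    rw [pow_add, mul_comm 3, pow_mul]
  have hy1 : y ≠ 1 := fun e => hy0 (by simp [hYdef, e])
  have h1y : 1 + y ≠ 0 := fun e => hy0 (by
    have e' : y = -1 := by linear_combination e
    rw [hYdef, e', hodd.neg_one_pow, (by decide : Odd 3).neg_one_pow])
  have hY1 : ((1 + y) ^ 3 ^ m) ^ 3 = 1 + Y := by
    rw [add_pow_char_pow (p := 3), add_pow_char (p := 3), one_pow, one_pow]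
  have hd1 : E 1 = 1 - d := by
    have := (hprod 1).1
    simp only [one_pow] at this
    rw [(hE (1 + 1) (by intro e; exact one_ne_zero (by linear_combination -e + h3 : (1 : K) = 0))).1,
      show (1 + 1 : K) = -1 by linear_combination h3, hev.neg_one_pow, one_mul] at this
    linear_combination -this
  have hE1 : E 1 = 0 := by
    have e := (hprod y).1
    rw [(hE _ h1y).1, (hE y z₀.ne_zero).1, hp1, hp1, hY1] at e
    have e' : (y - Y) * E 1 = 0 := by linear_combination e - (Y * E 1) * h3 + Y * (hd1)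
    exact (mul_eq_zero.1 e').resolve_left (sub_ne_zero.2 (Ne.symm hy0))
  have hd : d = 1 := by linear_combination hd1 - hE1
  have hG1 : G 1 = 0 := by
    have e := (hprod y).2
    rw [(hE _ h1y).2, (hE y z₀.ne_zero).2, hp2, hp2, hY1, hd, hE1] at e
    have e' : ((y - 1) * (y - Y)) * G 1 = 0 := by linear_combination e - ((y + Y * y) * G 1) * h3
    exact (mul_eq_zero.1 e').resolve_left (mul_ne_zero (sub_ne_zero.2 hy1) (sub_ne_zero.2 (Ne.symm hy0)))
  have hfix : ∀ t u v, β2 (uR m t u v) = uR m t u v := by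
    intro t u v
    have hEG : E t = 0 ∧ G t = 0 := by
      rcases eq_or_ne t 0 with rfl | ht
      · exact hQ00
      · rw [(hE t ht).1, (hE t ht).2, hE1, hG1, mul_zero, mul_zero]; exact ⟨rfl, rfl⟩
    rw [hQR, (hfull t u v).1, (hfull t u v).2]
    rw [show Q t 0 0 = E t from rfl, show Q 0 u 0 = D u from rfl, show R t 0 0 = G t from rfl,
      show R 0 0 v = B v from rfl, hDx, hBx, hd, hEG.1, hEG.2]
    simp
  have h1 := eq_one_of_fix θ hθ hK hm T β2 hfix ht2
  refine ⟨k⁻¹ * (T.hom c⁻¹)⁻¹, σ, ?_⟩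
  rw [hβ2, inv_mul_eq_one] at h1
  rw [h1, map_mul, map_inv, map_inv, map_inv, hβ1]
  group

theorem field_inner_trivial (hf) {σ : K ≃+* K} {k : GR K m}
    (h : fieldAut K m hf σ = MulAut.conj k) : σ = 1 := by
  obtain ⟨T⟩ := exists_tor θ hθ hK
  have hk : k.1 ∈ chevG2.borelSubgroup K := by
    refine normalizer_le_borel θ hθ hK fun x hx => ?_
    obtain ⟨t, u, v, rfl⟩ := (mem_uSub θ hθ hK).1 hx
    rw [← MulAut.conj_apply, ← h, fieldAut_uR]
    exact uR_mem_uSub _ _ _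
  obtain ⟨p, q, r, z, rfl⟩ := borel_cases θ hθ hK T hk
  have key : ∀ x, σ x = (z : K) * x := by
    intro x
    have e := congrArg (fun e : MulAut (GR K m) => e (uR m x 0 0)) h
    simp only [fieldAut_uR, MulAut.conj_apply] at e
    rw [eq_mul_inv_iff_mul_eq, ← mul_assoc (uR m (σ x) _ _), uR_mul θ hθ hK] at e
    have e2 := T.conj z x 0 0
    rw [mul_inv_eq_iff_eq_mul] at e2
    rw [mul_assoc (uR m p q r), e2, ← mul_assoc, uR_mul θ hθ hK] at e
    have e3 := mul_right_cancel e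
    linear_combination (uR_inj e3).1
  have h1 := key 1
  rw [map_one, mul_one] at h1
  exact RingEquiv.ext fun x => by rw [key, ← h1, one_mul]; rfl

theorem card_out (hm : 1 ≤ m) : Nat.card (Cfsg.Out (GR K m)) = 2 * m + 1 := by
  haveI : Fact (Nat.Prime 3) := ⟨Nat.prime_three⟩
  have hf : ∀ (σ : K ≃+* K) (g : GL chevG2.Idx K), g ∈ twistedG2 K (3 ^ m) →
      gmap chevG2 σ.toRingHom g ∈ twistedG2 K (3 ^ m) := fun σ g hg => gmap_mem θ hθ hK σ hg
  let ψ : (K ≃+* K) →* Cfsg.Out (GR K m) :=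
    (QuotientGroup.mk' (Cfsg.Inn (GR K m))).comp (fieldAut K m hf)
  have hb : Function.Bijective ψ := by
    constructor
    · rw [injective_iff_map_eq_one]
      intro σ hσ
      obtain ⟨k, hk⟩ := (QuotientGroup.eq_one_iff _).1 hσ
      exact field_inner_trivial θ hθ hK hf hk.symm
    · intro x
      obtain ⟨β, rfl⟩ := QuotientGroup.mk_surjective x
      obtain ⟨k, σ, rfl⟩ := exists_inner_field θ hθ hK hm hf β
      refine ⟨σ, ?_⟩
      show QuotientGroup.mk (fieldAut K m hf σ) = QuotientGroup.mk (MulAut.conj k * fieldAut K m hf σ)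
      rw [QuotientGroup.eq]
      have := (Cfsg.innNormal (GR K m)).conj_mem _ ⟨k, rfl⟩ (fieldAut K m hf σ)⁻¹
      rwa [inv_inv, mul_assoc] at this
  obtain ⟨e⟩ := AutPSL.ringAut_equiv (F := K) (p := 3) (f := 2 * m + 1) (by omega) hK
  rw [← Nat.card_congr (Equiv.ofBijective ψ hb), Nat.card_congr e.toEquiv,
    Nat.card_congr Multiplicative.toAdd, Nat.card_zmod]

end Cfsg.Agent.Lib.ReeAut
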